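import Mathlib
import Cfsg.Statements.S3253

/-!
# Groups whose elements of order three have centraliser `3 × 3` or `3 × A₄`: definitions
-/

set_option autoImplicit false

namespace H66.T3
open Subgroup

/-- Every element of order three has centraliser `3 × 3` or `3 × A₄`. -/
def T3 (G : Type*) [Group G] : Prop := ∀ s : G, orderOf s = 3 →
  Nonempty (centralizer ({s} : Set G) ≃* Multiplicative (ZMod 3) × Multiplicative (ZMod 3)) ∨
  Nonempty (centralizer ({s} : Set G) ≃* Multiplicative (ZMod 3) × alternatingGroup (Fin 4))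

/-- `G` is `L₃(4)`. -/
def IsoL34 (G : Type*) [Group G] : Prop := ∃ (F : Type) (_ : Field F) (_ : Fintype F), Fintype.card F = 4 ∧
  Nonempty (G ≃* Matrix.ProjectiveSpecialLinearGroup (Fin 3) F)

/-- The list `A₆, A₇, L₃(4), L₃(7), U₃(5), M₂₂`. -/
def Concl (G : Type*) [Group G] : Prop :=
  Nonempty (G ≃* alternatingGroup (Fin 6)) ∨ Nonempty (G ≃* alternatingGroup (Fin 7)) ∨
    (∃ (F : Type) (_ : Field F) (_ : Fintype F), (Fintype.card F = 4 ∨ Fintype.card F = 7) ∧
      Nonempty (G ≃* Matrix.ProjectiveSpecialLinearGroup (Fin 3) F)) ∨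
    (∃ (F : Type) (_ : Field F) (_ : Fintype F), Fintype.card F = 25 ∧ Nonempty (G ≃* Cfsg.PSU 3 F 5)) ∨
    Cfsg.Spor.IsoM22 G

/-- Relations of the involution centraliser `2⁴:S₄` of `M₂₂`: `R = ⟨t, v, p, q⟩`, `U = ⟨u, w⟩`, `S₃ = ⟨x, s⟩`. -/
structure PC {G : Type*} [Group G] (t v p q u w x s : G) : Prop where
  t2 : t * t = 1
  v2 : v * v = 1
  p2 : p * p = 1
  u2 : u * u = 1
  s2 : s * s = 1
  x3 : x * x * x = 1
  tv : t * v = v * t
  tp : t * p = p * t
  tu : t * u = u * t
  tx : t * x = x * t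
  ts : t * s = s * t
  vp : v * p = p * v
  xv : x * v = v * x
  xp : x * p * x⁻¹ = q
  xq : x * q * x⁻¹ = p * q
  xu : x * u * x⁻¹ = w
  xw : x * w * x⁻¹ = u * w
  sx : s * x * s = x⁻¹
  sv : s * v * s = t * v
  sp : s * p = p * s
  su : s * u = u * s
  up : u * p = p * u
  uq : u * q * u = q * t
  uv : u * v * u = v * p * t

/-- An elementary abelian group of order `2⁸` on which some involution acts freely, elements of order three fix at most
four vectors and subgroups `3 × 3` fix only the identity. -/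
structure Mod8 {K V : Type*} [Group K] [Group V] (ρ : K →* MulAut V) : Prop where
  sq : ∀ a : V, a * a = 1
  card : Nat.card V = 256
  h2 : ∃ i : K, orderOf i = 2 ∧ Nat.card {a : V // ρ i a = a} = 16
  h3 : ∀ y : K, orderOf y = 3 → Nat.card {a : V // ρ y a = a} ≤ 4
  h9 : ∀ y z : K, orderOf y = 3 → orderOf z = 3 → y * z = z * y → z ∉ zpowers y →
    ∀ a : V, ρ y a = a → ρ z a = a → a = 1

end H66.T3
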