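import Cfsg.Agent.Lib.T3.End1
import Cfsg.Agent.Lib.M24Geom.ClsM22

/-!
# The relations `PC` in `M₂₂`
-/

set_option autoImplicit false

namespace H66.T3
open Subgroup H15 H96.Geo H96.Geo.M22 Cfsg

def cv : ℕ := 984230048376954736502601549567334432
def cp : ℕ := 984481035417004622389629550076640288
def cq : ℕ := 984188218311738396460148637629553696
def cu : ℕ := 980512153863662622808422304714958880
def cw : ℕ := 980315668202993199018439250323548448
def cx : ℕ := 957383353683614741403807832766258624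
def cs : ℕ := 973771501256562028186416545792113696

def evL (L : List ℕ) : ℕ := L.foldr mulP idP

theorem evL_spec : ∀ L : List ℕ, L.all okP = true → okP (evL L) = true ∧ permOf (evL L) = (L.map permOf).prod
  | [], _ => ⟨okP_idP, permOf_idP⟩
  | a :: L, h => by
    rw [List.all_cons, Bool.and_eq_true] at h
    obtain ⟨h1, h2⟩ := evL_spec L h.2
    rw [show evL (a :: L) = mulP a (evL L) from List.foldr_cons, List.map_cons, List.prod_cons, ← h2]
    exact ⟨okP_mulP h.1 h1, permOf_mulP h.1 h1⟩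

theorem relL (L L' : List ℕ) (h : L.all okP = true ∧ L'.all okP = true ∧ evL L = evL L') :
    (L.map permOf).prod = (L'.map permOf).prod := by
  rw [← (evL_spec L h.1).2, ← (evL_spec L' h.2.1).2, h.2.2]

theorem pc22 : PC (permOf c2A) (permOf cv) (permOf cp) (permOf cq) (permOf cu) (permOf cw) (permOf cx)
    (permOf cs) := by
  have a (c) (h : [c, c].all okP = true ∧ [].all okP = true ∧ evL [c, c] = evL []) : permOf c * permOf c = 1 := by
    simpa using relL _ _ h
  have b (c d e f) (h : [c, d].all okP = true ∧ [e, f].all okP = true ∧ evL [c, d] = evL [e, f]) :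
      permOf c * permOf d = permOf e * permOf f := by simpa using relL _ _ h
  have c (c d e f g) (h : [c, d, e].all okP = true ∧ [f, g].all okP = true ∧ evL [c, d, e] = evL [f, g]) :
      permOf c * permOf d * permOf e = permOf f * permOf g := by simpa [mul_assoc] using relL _ _ h
  refine ⟨a _ ?_, a _ ?_, a _ ?_, a _ ?_, a _ ?_, by simpa [mul_assoc] using relL [cx, cx, cx] [] (by decide +kernel),
    b _ _ _ _ ?_, b _ _ _ _ ?_, b _ _ _ _ ?_, b _ _ _ _ ?_, b _ _ _ _ ?_, b _ _ _ _ ?_, b _ _ _ _ ?_,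
    mul_inv_eq_iff_eq_mul.2 (b _ _ _ _ ?_), mul_inv_eq_iff_eq_mul.2 (c _ _ _ _ _ ?_).symm,
    mul_inv_eq_iff_eq_mul.2 (b _ _ _ _ ?_), mul_inv_eq_iff_eq_mul.2 (c _ _ _ _ _ ?_).symm,
    eq_inv_of_mul_eq_one_left (by simpa [mul_assoc] using relL [cs, cx, cs, cx] [] (by decide +kernel)),
    c _ _ _ _ _ ?_, b _ _ _ _ ?_, b _ _ _ _ ?_, b _ _ _ _ ?_, c _ _ _ _ _ ?_,
    by simpa [mul_assoc] using relL [cu, cv, cu] [cv, cp, c2A] (by decide +kernel)⟩ <;> decide +kernel

theorem closure22 : closure {permOf c2A, permOf cv, permOf cp, permOf cq, permOf cu, permOf cw, permOf cx,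
    permOf cs} = Spor.M22 ⊓ centralizer {permOf c2A} := by
  refine le_antisymm ((closure_le _).2 ?_) (le_of_grp_eq cent2A.2 fun c hc => ?_)
  · rintro _ (rfl | rfl | rfl | rfl | rfl | rfl | rfl | rfl) <;>
      exact (good_of_memb cent2A.1 (by decide +kernel)).2
  · rw [(by decide +kernel : z2A.gens = [[cp, cu, cs, cx], [cv, cp, cq, cx]].map evL)] at hc
    obtain ⟨L, hL, rfl⟩ := List.mem_map.1 hc
    have ok := evL_spec L ((by decide +kernel : ∀ L ∈ [[cp, cu, cs, cx], [cv, cp, cq, cx]], L.all okP = true) L hL)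
    refine ⟨ok.1, ?_⟩
    rw [ok.2]
    refine Subgroup.list_prod_mem _ fun g hg => subset_closure ?_
    simp only [List.mem_cons, List.not_mem_nil, or_false] at hL
    rcases hL with rfl | rfl <;> simp only [List.map, List.mem_cons, List.not_mem_nil, or_false] at hg <;>
      rcases hg with rfl | rfl | rfl | rfl <;> simp

theorem model22 : ∃ m : Spor.M22, orderOf m = 2 ∧ Nonempty (Mo ≃* centralizer ({m} : Set Spor.M22)) := by
  obtain ⟨φ, e1, e2, e3, e4, e5, e6, e7, e8⟩ := pc22.exists_hom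
  have r : φ.range = Spor.M22 ⊓ centralizer {permOf c2A} := by
    rw [range_eq, e1, e2, e3, e4, e5, e6, e7, e8, closure22]
  have i := inj_of_card φ (r ▸ card_cent2A)
  have m : permOf c2A ∈ Spor.M22 := (r.le ⟨_, e1⟩).1
  refine ⟨⟨_, m⟩, ?_, ⟨((MonoidHom.ofInjective i).trans (MulEquiv.subgroupCongr (r.trans ?_))).trans
    ((centralizer {(⟨_, m⟩ : Spor.M22)}).equivMapOfInjective Spor.M22.subtype Subtype.val_injective).symm⟩⟩
  · rw [← orderOf_coe]
    exact (H96.Geo.orderOf_permOf (by decide +kernel)).trans (by decide +kernel)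
  · ext g
    simp only [mem_map, mem_centralizer_singleton_iff, mem_inf]
    exact ⟨fun ⟨a, b⟩ => ⟨⟨g, a⟩, Subtype.ext b, rfl⟩, fun ⟨a, b, c⟩ => c ▸ ⟨a.2, congrArg Subtype.val b⟩⟩

theorem eqns_end2 : True := by
  have := @cv.eq_1
  have := @cp.eq_1
  have := @cq.eq_1
  have := @cu.eq_1
  have := @cw.eq_1
  have := @cx.eq_1
  have := @cs.eq_1
  have := @evL.eq_1
  trivial

end H66.T3
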