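import Cfsg.Agent.Lib.T3.Mod1
import Cfsg.Agent.Lib.Pres.Carm
import Cfsg.Agent.Lib.Golay.L34

set_option autoImplicit false
set_option maxRecDepth 100000

namespace H92.T3M
open Subgroup H66.T3 Equiv

/-- the alternating group of degree six -/
abbrev A6 := alternatingGroup (Fin 6)

/-- a product of two transpositions -/
def E (a b c d : Fin 6) : A6 := if h : a ≠ b ∧ c ≠ d then
  ⟨swap a b * swap c d, Perm.mem_alternatingGroup.2 (by simp [Perm.sign_swap h.1, Perm.sign_swap h.2])⟩ else 1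

/-- the involutions commuting with `(0 1)(2 3)` -/
def J4 : List A6 := [E 2 3 4 5, E 0 1 4 5, E 0 2 1 3, E 0 3 1 2]

theorem conj2 (i j : A6) (hi : orderOf i = 2) (hj : orderOf j = 2) : IsConj i j := by
  have k : ∀ i : A6, orderOf i = 2 → (i : Perm (Fin 6)).cycleType = Multiset.replicate 2 2 := fun i hi => by
    rw [← orderOf_coe] at hi
    obtain ⟨n, e⟩ := Perm.cycleType_prime_order (hi ▸ Nat.prime_two)
    have l := Perm.sum_cycleType_le (i : Perm (Fin 6))
    have s := (Perm.sign_of_cycleType _).symm.trans (Perm.mem_alternatingGroup.1 i.2)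
    rw [e, hi] at l s ⊢
    simp only [Multiset.sum_replicate, smul_eq_mul, Fintype.card_fin, Multiset.card_replicate] at l s
    obtain rfl | rfl | rfl : n = 0 ∨ n = 1 ∨ n = 2 := by omega
    exacts [absurd s (by decide), rfl, absurd s (by decide)]
  exact alternatingGroup.isConj_of (Perm.isConj_iff_cycleType_eq.2 ((k i hi).trans (k j hj).symm))
    (by rw [← Perm.sum_cycleType, k i hi]; decide)

theorem std1 {i : A6} (hi : orderOf i = 2) : ∃ θ : A6 ≃* A6, θ (E 0 1 2 3) = i :=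
  (isConj_iff.1 (conj2 _ _ (ord2 (by decide) (by decide)) hi)).elim fun g e => ⟨MulAut.conj g, e⟩

theorem std {i j : A6} (hi : orderOf i = 2) (hj : orderOf j = 2) (c : i * j = j * i) (n : i ≠ j) :
    ∃ θ : A6 ≃* A6, ∃ k ∈ J4, θ (E 0 1 2 3) = i ∧ θ k = j := by
  obtain ⟨θ, rfl⟩ := std1 hi
  obtain ⟨k, rfl⟩ := θ.surjective j
  rw [MulEquiv.orderOf_eq] at hj
  exact ⟨θ, k, (by decide +kernel : ∀ k : A6, E 0 1 2 3 * k = k * E 0 1 2 3 → k * k = 1 → k ≠ 1 →
    E 0 1 2 3 ≠ k → k ∈ J4) k (θ.injective (by simpa using c)) (of2 hj).1 (of2 hj).2 (by simpa using n), rfl, rfl⟩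

section
variable {K V : Type*} [Group K] [CommGroup V] [Finite V]

theorem free0 {ρ : K →* MulAut V} (h : Mod8 ρ) {φ : A6 →* K} (i : Function.Injective φ) :
    Nat.card (Fx ρ (φ (E 0 1 2 3))) = 16 :=
  free h (E9.map i (by decide : E9 (E 2 3 3 4) (E 0 1 1 5))) (by rw [← map_mul, ← map_one φ]; congr 1; decide)
    (by simp only [← map_mul, ← map_one φ]; congr 1; decide) (by simp only [← map_mul, ← map_one φ]; congr 1; decide)

theorem comp6 {ρ : K →* MulAut V} (h : Mod8 ρ) {φ : A6 →* K} (i : Function.Injective φ) : Mod8 (ρ.comp φ) :=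
  ⟨h.sq, h.card, ⟨_, ord2 (by decide) (by decide), free0 h i⟩,
    fun y hy => h.h3 _ (by rw [orderOf_injective φ i, hy]), fun y z hy hz c n =>
      h.h9 _ _ (by rw [orderOf_injective φ i, hy]) (by rw [orderOf_injective φ i, hz])
        (by rw [← map_mul, c, map_mul]) (by rwa [← MonoidHom.map_zpowers, mem_map_iff_mem i])⟩

variable {ρ : A6 →* MulAut V} (h : Mod8 ρ)
include h

theorem five0 (a : V) (e : ρ (E 0 4 0 3 * E 0 2 0 1) a = a) : a = 1 := by
  by_contra n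
  obtain ⟨b, ⟨f, g⟩, m⟩ := half h (f := E 0 4 0 3 * E 0 2 0 1) (g := E 0 1 1 2 * E 1 3 2 4) (by decide) (by decide)
    (by decide) (free h (by decide : E9 (E 1 2 2 4) (E 0 3 3 5)) (by decide) (by decide) (by decide)) (by decide)
    (by decide) ⟨a, e, n⟩ ⟨ρ (E 1 2 3 4) a, mem_Fx.2 (by
      rw [← ap, (by decide : E 0 1 1 2 * E 1 3 2 4 * E 1 2 3 4 =
        E 1 2 3 4 * (E 0 4 0 3 * E 0 2 0 1 * (E 0 4 0 3 * E 0 2 0 1))), ap, fm e e]),
      fun k => n ((map_eq_one_iff _ (ρ _).injective).1 k)⟩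
  have p : ∀ {x y : A6}, ρ x b = b → y = x → ρ y b = b := fun e f => f ▸ e
  exact m (fin h (by decide : E9 (E 0 1 1 2) (E 3 4 4 5)) (by decide : E9 (E 0 1 1 3) (E 2 4 4 5))
    (p (fm (fm (fm (fm f f) f) g) f) (by decide)) (p (fm (fm (fm (fm g g) g) f) g) (by decide))
    (p (fm (fm (fm g g) f) g) (by decide)) (p (fm (fm (fm g g) f) g) (by decide)))

theorem five {f : A6} (hf : orderOf f = 5) (a : V) (e : ρ f a = a) : a = 1 := by
  have k : ∀ f : A6, orderOf f = 5 → (f : Perm (Fin 6)).cycleType = Multiset.replicate 1 5 := fun f hf => by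
    rw [← orderOf_coe] at hf
    obtain ⟨n, e⟩ := Perm.cycleType_prime_order (hf ▸ Nat.prime_five)
    have l := Perm.sum_cycleType_le (f : Perm (Fin 6))
    rw [e, hf] at l ⊢
    simp only [Multiset.sum_replicate, smul_eq_mul, Fintype.card_fin] at l
    obtain rfl : n = 0 := by omega
    rfl
  have := Fact.mk Nat.prime_five
  obtain ⟨g, r⟩ := isConj_iff.1 (Perm.isConj_iff_cycleType_eq.2 ((k (E 0 4 0 3 * E 0 2 0 1)
    (orderOf_eq_prime (by decide) (by decide))).trans (k f hf).symm))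
  obtain rfl : MulAut.conjNormal g (E 0 4 0 3 * E 0 2 0 1) = f := Subtype.ext r
  exact five0 (comp6 h (φ := (MulAut.conjNormal g : A6 ≃* A6).toMonoidHom) (MulAut.conjNormal g).injective) a e

theorem all16 {i : A6} (hi : orderOf i = 2) : Nat.card (Fx ρ i) = 16 := by
  obtain ⟨θ, rfl⟩ := std1 hi
  exact free0 h (φ := θ.toMonoidHom) θ.injective

theorem quad6 {i j : A6} (hi : orderOf i = 2) (hj : orderOf j = 2) (c : i * j = j * i) (n : i ≠ j) :
    ∃ a, ρ i a = a ∧ ρ j a ≠ a := by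
  obtain ⟨θ, j, m, rfl, rfl⟩ := std hi hj c n
  have h' := comp6 h (φ := θ.toMonoidHom) θ.injective
  have := Fact.mk Nat.prime_five
  obtain ⟨k, -, k2, e, k5, k1⟩ := (by decide +kernel : ∀ j ∈ J4, ∃ k ∈ [E 1 4 3 5, E 1 4 2 3], k * k = 1 ∧
    E9 (E 0 1 2 3 * k) (E 2 3 3 5) ∧ (j * k) ^ 5 = 1 ∧ j * k ≠ 1) j m
  exact quad (i := E 0 1 2 3) (j := j) h' (by decide) k2 e (five h' (orderOf_eq_prime k5 k1))

end

open H15

/-- codes of eight elements of `M₂₁` -/
def cd : Fin 8 → ℕ := ![976531636853126291160407323722221600, 980874226864350081512017426024335392,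
  972685164120109888889305938773870624, 978042334807755575000832603431475232, 964048863636159516120866082550681632,
  979578569886085571029620897964275744, 976448692869377735270425038196672544, 980224387687010295957922729495201824]

/-- the code of a word -/
def ev (l : List (Fin 8)) : ℕ := l.foldr (fun a c => mulP (cd a) c) idP

theorem cd_good (k : Fin 8) : Good M21 (cd k) := by
  obtain ⟨a, b, c, d⟩ := (by decide +kernel : ∀ k, inM24 (cd k) = true ∧ H15.ap (cd k) 23 = 23 ∧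
    H15.ap (cd k) 0 = 0 ∧ H15.ap (cd k) 1 = 1) k
  exact good_M21 a b c d

theorem ev_spec : ∀ l, okP (ev l) = true ∧ permOf (ev l) = (l.map fun k => permOf (cd k)).prod
  | [] => ⟨okP_idP, permOf_idP⟩
  | a :: l => by
    rw [show ev (a :: l) = mulP (cd a) (ev l) from List.foldr_cons, List.map_cons, List.prod_cons, ← (ev_spec l).2]
    exact ⟨okP_mulP (cd_good a).1 (ev_spec l).1, permOf_mulP (cd_good a).1 (ev_spec l).1⟩

theorem exW {K : Type*} [Group K] (hK : IsoL34 K) : ∃ W : Fin 8 → K, W 0 ≠ 1 ∧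
    ∀ l l' : List (Fin 8), ev l = ev l' → (l.map W).prod = (l'.map W).prod := by
  obtain ⟨F, _, _, c, ⟨e⟩⟩ := hK
  obtain ⟨e'⟩ := M21_equiv_PSL F c
  let θ := e.trans e'.symm
  let ι : K →* Perm Cfsg.GolayPt := M21.subtype.comp θ.toMonoidHom
  have i : Function.Injective ι := M21.subtype_injective.comp θ.injective
  let W : Fin 8 → K := fun k => θ.symm ⟨_, (cd_good k).2⟩
  have w : ∀ k, ι (W k) = permOf (cd k) := fun k => congrArg Subtype.val (θ.apply_symm_apply _)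
  refine ⟨W, fun k => ?_, fun l l' k => i ?_⟩
  · have := (w 0).symm.trans ((congrArg ι k).trans ((map_one ι).trans permOf_idP.symm))
    exact absurd (permOf_inj (cd_good 0).1 okP_idP (by decide +kernel) (by decide +kernel) this) (by decide +kernel)
  · simp only [map_list_prod, List.map_map, Function.comp_def, w, ← (ev_spec _).2, k]

open H40.Alt in
theorem l34 {K V : Type*} [Group K] [CommGroup V] [Finite V] (hK : IsoL34 K) {ρ : K →* MulAut V} (h : Mod8 ρ) :
    False := by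
  obtain ⟨W, n, r⟩ := exW hK
  let c : Fin 4 → Fin 8 := Fin.castLE (by decide)
  obtain ⟨ψ, hψ⟩ := carm_hom (fun i => W (c i))
    (fun i => by
      simpa [pow_succ, mul_assoc] using r _ _ ((by decide +kernel : ∀ i, ev [c i, c i, c i] = ev []) i))
    fun i j k => by
      simpa [pow_succ, mul_assoc] using
        r _ _ ((by decide +kernel : ∀ i j, i ≠ j → ev [c i, c j, c i, c j] = ev []) i j k)
  have w0 : ψ (xa 0) = W 0 := hψ 0
  have w1 : ψ (xa 1) = W 1 := hψ 1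
  have w2 : ψ (xa 2) = W 2 := hψ 2
  have := alternatingGroup.isSimpleGroup (α := Fin 4 ⊕ Bool) (by simp)
  have inj : Function.Injective ψ := (MonoidHom.ker_eq_bot_iff ψ).1 ((ψ.normal_ker.eq_bot_or_eq_top).resolve_right
    fun e => n (w0 ▸ e.ge (mem_top _)))
  let θ : AA (Fin 4) ≃* A6 := (Fintype.equivFinOfCardEq (by simp)).altCongrHom
  have i' : Function.Injective (ψ.comp θ.symm.toMonoidHom) := inj.comp θ.symm.injective
  have h' := comp6 h i'
  have e : ∀ x a, ρ.comp (ψ.comp θ.symm.toMonoidHom) (θ x) a = ρ (ψ x) a := fun x a => by simp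
  have := Fact.mk Nat.prime_five
  have o1 : orderOf (θ (xa 0 * xa 1)) = 2 := (θ.orderOf_eq _).trans (ord2 (by decide) (by decide))
  obtain ⟨a, a1, a2⟩ := quad6 h' o1 (j := θ (xa 1 * xa 0)) ((θ.orderOf_eq _).trans (ord2 (by decide) (by decide)))
    (by rw [← map_mul, ← map_mul]; congr 1; decide) (θ.injective.ne (by decide))
  have f := five h' (f := θ (xa 0 * xa 1 * xa 1 * xa 2))
    ((θ.orderOf_eq _).trans (orderOf_eq_prime (by decide) (by decide)))
  have c16 := all16 h' o1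
  rw [show Fx _ (θ (xa 0 * xa 1)) = Fx ρ (ψ (xa 0 * xa 1)) from Subgroup.ext fun a => by rw [mem_Fx, e, mem_Fx]] at c16
  simp only [e, map_mul ψ, w0, w1, w2] at a1 a2 f c16
  have r5 : W 0 * W 1 * W 1 * W 2 * (W 4)⁻¹ = (W 4)⁻¹ * W 5 := by
    rw [mul_inv_eq_iff_eq_mul, mul_assoc _ (W 5), eq_inv_mul_iff_mul_eq]
    simpa [mul_assoc] using r [4, 0, 1, 1, 2] [5, 4] (by decide +kernel)
  refine a2 (core h (f := W 5) (u := W 6) (v := W 7) ?_ (fun b m => (map_eq_one_iff _ (ρ (W 4)⁻¹).injective).1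
    (f _ (by rw [← H92.T3M.ap, r5, H92.T3M.ap, m]))) ?_ ?_ ?_ ?_ ?_ ?_ ?_ ?_ ?_ ?_ ?_ ?_ ?_ ?_ c16 a1)
  · simpa [pow_succ, mul_assoc] using r [5, 5, 5, 5, 5] [] (by decide +kernel)
  · simpa [mul_assoc] using r [0, 1, 0, 1] [] (by decide +kernel)
  · simpa [mul_assoc] using r [1, 0, 1, 0] [] (by decide +kernel)
  · simpa using r [6, 6] [] (by decide +kernel)
  · simpa using r [7, 7] [] (by decide +kernel)
  · simpa only [List.map, List.prod_cons, List.prod_nil, mul_one, mul_assoc] using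
      r [0, 1, 1, 0] [1, 0, 0, 1] (by decide +kernel)
  · simpa [mul_assoc] using r [0, 1, 6] [6, 0, 1] (by decide +kernel)
  · simpa [mul_assoc] using r [0, 1, 7] [7, 0, 1] (by decide +kernel)
  · simpa [mul_assoc] using r [1, 0, 6] [6, 1, 0] (by decide +kernel)
  · simpa [mul_assoc] using r [1, 0, 7] [7, 1, 0] (by decide +kernel)
  · simpa using r [6, 7] [7, 6] (by decide +kernel)
  · simpa [mul_assoc] using r [1, 0, 5] [5, 0, 1] (by decide +kernel)
  · simpa [mul_assoc] using r [6, 5] [5, 1, 0] (by decide +kernel)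
  · simpa using r [7, 5] [5, 6] (by decide +kernel)
  · simpa [mul_assoc] using r [0, 1, 5] [5, 0, 1, 1, 0, 6, 7] (by decide +kernel)

/-- the commutative structure -/
@[reducible] def cg {K V : Type*} [Group K] [Group V] {ρ : K →* MulAut V} (h : Mod8 ρ) : CommGroup V :=
  { (inferInstance : Group V) with
    mul_comm := fun a b => by
      rw [← inv_eq_of_mul_eq_one_right (h.sq (a * b)), mul_inv_rev, inv_eq_of_mul_eq_one_right (h.sq a),
        inv_eq_of_mul_eq_one_right (h.sq b)] }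

theorem eqns_mod : True := by
  have := @E.eq_1
  have := @J4.eq_1
  have := @cd.eq_1
  have := @ev.eq_1
  have := @cg.eq_1.{0, 0}
  trivial

end H92.T3M

namespace H66.T3
open Subgroup
open H92.T3M

theorem a6_conj (i j : alternatingGroup (Fin 6)) (hi : orderOf i = 2) (hj : orderOf j = 2) : ∃ g, g * i * g⁻¹ = j :=
  isConj_iff.1 (conj2 i j hi hj)

theorem a6_four (i j : alternatingGroup (Fin 6)) (hi : orderOf i = 2) (hj : orderOf j = 2) (c : i * j = j * i)
    (n : i ≠ j) : ∃ y, y * y * y = 1 ∧ y * i * y⁻¹ = j ∧ y * j * y⁻¹ = i * j := by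
  obtain ⟨θ, j, m, rfl, rfl⟩ := std hi hj c n
  obtain ⟨y, -, a, b, c⟩ := (by decide +kernel : ∀ j ∈ J4, ∃ y ∈ [E 0 2 1 3 * E 2 4 3 5, E 0 2 0 4 * E 1 3 1 5,
    E 1 2 2 3, E 1 2 1 3], y * y * y = 1 ∧ y * E 0 1 2 3 * y⁻¹ = j ∧ y * j * y⁻¹ = E 0 1 2 3 * j) j m
  exact ⟨θ y, by simpa using congrArg θ a, by simpa using congrArg θ b, by simpa using congrArg θ c⟩

theorem a6_cent (i j c : alternatingGroup (Fin 6)) (hi : orderOf i = 2) (hj : orderOf j = 2) (e : i * j = j * i)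
    (n : i ≠ j) (ci : c * i = i * c) (cj : c * j = j * c) : c = 1 ∨ c = i ∨ c = j ∨ c = i * j := by
  obtain ⟨θ, j, m, rfl, rfl⟩ := std hi hj e n
  obtain ⟨c, rfl⟩ := θ.surjective c
  rw [← map_one θ]
  simp only [← map_mul, θ.apply_eq_iff_eq] at ci cj ⊢
  exact (by decide +kernel : ∀ c : A6, c * E 0 1 2 3 = E 0 1 2 3 * c → ∀ j ∈ J4, c * j = j * c →
    c = 1 ∨ c = E 0 1 2 3 ∨ c = j ∨ c = E 0 1 2 3 * j) c ci j m cj

theorem a6_d8 (i : alternatingGroup (Fin 6)) (hi : orderOf i = 2) : ∃ j k, orderOf j = 2 ∧ orderOf k = 2 ∧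
    i * j = j * i ∧ i * k = k * i ∧ i ≠ j ∧ i ≠ k ∧ j * k * (j * k) = i := by
  obtain ⟨θ, rfl⟩ := std1 hi
  refine ⟨θ (E 2 3 4 5), θ (E 0 2 1 3), (θ.orderOf_eq _).trans (ord2 (by decide) (by decide)),
    (θ.orderOf_eq _).trans (ord2 (by decide) (by decide)), ?_⟩
  simp only [← map_mul, θ.apply_eq_iff_eq, θ.injective.ne_iff]
  decide

theorem s4_four (x s : Equiv.Perm (Fin 4)) (hx : orderOf x = 3) (hs : s * s = 1) (e : s * x * s = x⁻¹) :
    ∃ u, u ≠ 1 ∧ u ≠ s ∧ u * u = 1 ∧ s * u = u * s ∧ x * (x * u * x⁻¹) * x⁻¹ = u * (x * u * x⁻¹) ∧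
      ∀ g, g ∈ closure {u, x, s} := by
  obtain ⟨u, a, b⟩ := (by decide +kernel : ∀ x : Equiv.Perm (Fin 4), x ^ 3 = 1 ∧ x ≠ 1 → ∀ s, s * s = 1 ∧
    s * x * s = x⁻¹ → ∃ u, (u ≠ 1 ∧ u ≠ s ∧ u * u = 1 ∧ s * u = u * s ∧
      x * (x * u * x⁻¹) * x⁻¹ = u * (x * u * x⁻¹)) ∧ ∀ g, ∃ v ∈ [1, u, x * u * x⁻¹, u * (x * u * x⁻¹)],
        ∃ w ∈ [1, x, x⁻¹, s, x * s, x⁻¹ * s], g = v * w) x
    ⟨hx ▸ pow_orderOf_eq_one x, fun e => by simp [e] at hx⟩ s ⟨hs, e⟩
  refine ⟨u, a.1, a.2.1, a.2.2.1, a.2.2.2.1, a.2.2.2.2, fun g => ?_⟩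
  obtain ⟨v, hv, w, hw, rfl⟩ := b g
  have m1 : u ∈ closure {u, x, s} := subset_closure (by simp)
  have m2 : x ∈ closure {u, x, s} := subset_closure (by simp)
  have m3 : s ∈ closure {u, x, s} := subset_closure (by simp)
  have m4 := mul_mem (mul_mem m2 m1) (inv_mem m2)
  simp only [List.mem_cons, List.not_mem_nil, or_false] at hv hw
  refine mul_mem ?_ ?_
  · rcases hv with e | e | e | e <;> rw [e]
    exacts [one_mem _, m1, m4, mul_mem m1 m4]
  · rcases hw with e | e | e | e | e | e <;> rw [e]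
    exacts [one_mem _, m2, inv_mem m2, m3, mul_mem m2 m3, mul_mem (inv_mem m2) m3]

variable {V : Type*} [Group V] [Finite V]

theorem Mod8.a6_five {ρ : alternatingGroup (Fin 6) →* MulAut V} (h : Mod8 ρ) (f : alternatingGroup (Fin 6))
    (hf : orderOf f = 5) (a : V) (e : ρ f a = a) : a = 1 :=
  @five V (cg h) _ ρ h f hf a e

theorem Mod8.a6_quad {ρ : alternatingGroup (Fin 6) →* MulAut V} (h : Mod8 ρ) (i j : alternatingGroup (Fin 6))
    (hi : orderOf i = 2) (hj : orderOf j = 2) (c : i * j = j * i) (n : i ≠ j) : ∃ a, ρ i a = a ∧ ρ j a ≠ a :=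
  @quad6 V (cg h) _ ρ h i j hi hj c n

theorem Mod8.l34 {K : Type*} [Group K] (hK : IsoL34 K) {ρ : K →* MulAut V} (h : Mod8 ρ) : False :=
  @H92.T3M.l34 K V _ (cg h) _ hK ρ h

end H66.T3
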