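import Cfsg.Agent.Lib.T3.Defs

/-! # Elementary abelian groups of order `2⁸` with small fixed point groups -/

set_option autoImplicit false

namespace H92.T3M
open Subgroup H66.T3

variable {K V : Type*} [Group K] [CommGroup V] {ρ : K →* MulAut V} {a : V} {f g i j k y z : K}

/-- fixed points -/
def Fx (ρ : K →* MulAut V) (g : K) : Subgroup V := (ρ g).toMonoidHom.eqLocus (MonoidHom.id V)

theorem mem_Fx : a ∈ Fx ρ g ↔ ρ g a = a := Iff.rfl

theorem ap (g k : K) (a : V) : ρ (g * k) a = ρ g (ρ k a) := by rw [map_mul]; rfl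

theorem ap1 (a : V) : ρ 1 a = a := by rw [map_one]; rfl

theorem fm (h : ρ g a = a) (h' : ρ k a = a) : ρ (g * k) a = a := by rw [ap, h', h]

theorem fc (c : g * k = k * g) (h : ρ g a = a) : ρ g (ρ k a) = ρ k a := by rw [← ap, c, ap, h]

/-- generators of a subgroup `3 × 3` -/
def E9 (y z : K) : Prop := y * y * y = 1 ∧ z * z * z = 1 ∧ y * z = z * y ∧ y ≠ 1 ∧ z ≠ 1 ∧ z ≠ y ∧ z ≠ y * y

instance [DecidableEq K] (y z : K) : Decidable (E9 y z) := by unfold E9; infer_instance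

theorem E9.map {L : Type*} [Group L] {φ : K →* L} (h : Function.Injective φ) (e : E9 y z) : E9 (φ y) (φ z) := by
  simpa only [E9, ← map_mul, ← map_one φ, h.eq_iff, h.ne_iff] using e

theorem ord3 (h : y * y * y = 1) (h1 : y ≠ 1) : orderOf y = 3 :=
  orderOf_eq_prime (by rw [pow_succ, pow_two]; exact h) h1

theorem ord2 (h : i * i = 1) (h1 : i ≠ 1) : orderOf i = 2 := orderOf_eq_prime (by rw [pow_two]; exact h) h1

theorem of2 (h : orderOf i = 2) : i * i = 1 ∧ i ≠ 1 :=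
  ⟨by rw [← pow_two, ← h, pow_orderOf_eq_one], fun e => by simp [e] at h⟩

/-- the norm for an element of order three -/
def N3 (ρ : K →* MulAut V) (y : K) (a : V) : V := a * ρ y a * ρ (y * y) a

theorem N3_fix (h : y * y * y = 1) (a : V) : ρ y (N3 ρ y a) = N3 ρ y a := by
  simp only [N3, map_mul (ρ y), ← ap, ← mul_assoc y, h, ap1]; ac_rfl

theorem N3_comm (c : g * y = y * g) (h : ρ g a = a) : ρ g (N3 ρ y a) = N3 ρ y a := by
  rw [N3, map_mul, map_mul, h, fc c h, fc (Commute.mul_right c c) h]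

/-- the commutator map -/
def dl (ρ : K →* MulAut V) (g : K) : V →* V := (ρ g).toMonoidHom * MonoidHom.id V

theorem dl_apply (g : K) (a : V) : dl ρ g a = ρ g a * a := rfl

/-- the norm for an element of order five -/
def N5 (ρ : K →* MulAut V) (f : K) : V →* V := MonoidHom.id V * (ρ f).toMonoidHom * (ρ (f ^ 2)).toMonoidHom *
  (ρ (f ^ 3)).toMonoidHom * (ρ (f ^ 4)).toMonoidHom

theorem N5_apply (f : K) (a : V) : N5 ρ f a = a * ρ f a * ρ (f ^ 2) a * ρ (f ^ 3) a * ρ (f ^ 4) a := rfl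

theorem N5_inv (h : f ^ 5 = 1) (a : V) : N5 ρ f (ρ f a) = N5 ρ f a := by
  simp only [N5_apply, ← ap, ← pow_succ, ← pow_two, h, ap1, Nat.reduceAdd]; ac_rfl

theorem card_conj (g i : K) : Nat.card (Fx ρ (g * i * g⁻¹)) = Nat.card (Fx ρ i) :=
  Nat.card_congr ((ρ g).toEquiv.subtypeEquiv fun a => by
    show ρ i a = a ↔ ρ (g * i * g⁻¹) (ρ g a) = ρ g a
    rw [← ap, inv_mul_cancel_right, ap, (ρ g).apply_eq_iff_eq]).symm

theorem mod5 [Finite V] (h : f ^ 5 = 1) {W : Subgroup V} (hW : ∀ a ∈ W, ρ f a ∈ W) :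
    Nat.card W ≡ Nat.card (W ⊓ Fx ρ f : Subgroup V) [MOD 5] := by
  classical
  have := Fact.mk Nat.prime_five
  have := Fintype.ofFinite W
  let F : Function.End W := fun a => ⟨ρ f a, hW a a.2⟩
  have e : ∀ (n : ℕ) (a : W), ((F ^ n) a : V) = ρ (f ^ n) a := fun n a => by
    induction n with
    | zero => rw [pow_zero, pow_zero, ap1]; rfl
    | succ n ih => rw [pow_succ', pow_succ', ap, ← ih]; rfl
  have := Equiv.Perm.card_fixedPoints_modEq (f := F) (p := 5) (n := 1)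
    (funext fun a => Subtype.ext (by rw [e, pow_one, h, ap1]; rfl))
  rw [← Nat.card_eq_fintype_card, ← Nat.card_eq_fintype_card] at this
  rwa [Nat.card_congr (β := (W ⊓ Fx ρ f : Subgroup V)) (α := Function.fixedPoints F)
    ⟨fun a => ⟨a.1, a.1.2, congrArg Subtype.val a.2⟩, fun a => ⟨⟨a, a.2.1⟩, Subtype.ext a.2.2⟩,
      fun _ => rfl, fun _ => rfl⟩] at this

variable [Finite V] (h : Mod8 ρ)
include h

omit [Finite V] in
theorem le4 (e : y * y * y = 1) (n : y ≠ 1) : Nat.card (Fx ρ y) ≤ 4 := h.h3 y (ord3 e n)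

omit [Finite V] in
theorem fix9 (e : E9 y z) (h1 : ρ y a = a) (h2 : ρ z a = a) : a = 1 := by
  obtain ⟨y3, z3, c, n1, n2, n3, n4⟩ := e
  have : Finite (zpowers y) := finite_zpowers.2 (orderOf_pos_iff.1 (by rw [ord3 y3 n1]; omega))
  refine h.h9 y z (ord3 y3 n1) (ord3 z3 n2) c (fun ⟨n, m⟩ => ?_) a h1 h2
  simp only at m
  rw [← zpow_mod_orderOf, ord3 y3 n1] at m
  have : n % (3 : ℕ) = 0 ∨ n % (3 : ℕ) = 1 ∨ n % (3 : ℕ) = 2 := by omega
  rcases this with e | e | e <;> rw [e] at m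
  exacts [n2 (m ▸ zpow_zero y), n3 (m ▸ zpow_one y), n4 (m ▸ zpow_two y)]

omit [Finite V] in
theorem one_iff {a b : V} : a * b = 1 ↔ a = b := by
  rw [mul_eq_one_iff_eq_inv, inv_eq_of_mul_eq_one_right (h.sq b)]

omit [Finite V] in
theorem step (e : i * i = 1) {W : Subgroup V} (hW : ∀ a ∈ W, ρ i a ∈ W) (n : ∃ a ∈ W, a ≠ 1) :
    ∃ a ∈ W ⊓ Fx ρ i, a ≠ 1 := by
  obtain ⟨a, m, n⟩ := n
  by_cases c : ρ i a = a
  · exact ⟨a, ⟨m, c⟩, n⟩
  · exact ⟨ρ i a * a, ⟨mul_mem (hW a m) m, mem_Fx.2 (by rw [map_mul, ← ap, e, ap1, mul_comm])⟩,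
      fun k => c ((one_iff h).1 k)⟩

omit [Finite V] in
theorem pow2 (W : Subgroup V) : ∃ k ≤ 8, Nat.card W = 2 ^ k :=
  (Nat.dvd_prime_pow Nat.prime_two).1 (by simpa [h.card] using W.card_subgroup_dvd_card)

theorem big {W : Subgroup V} (e : Nat.card W ≡ 1 [MOD 5]) (n : ∃ a ∈ W, a ≠ 1) : 16 ≤ Nat.card W := by
  obtain ⟨a, m, n⟩ := n
  have : Nat.card W ≠ 1 := fun k => n (mem_bot.1 (card_eq_one.1 k ▸ m))
  obtain ⟨k, l, e'⟩ := pow2 h W
  rw [e'] at e this ⊢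
  revert e this
  interval_cases k <;> decide

theorem big5 (e : f ^ 5 = 1) (n : ∃ a ∈ Fx ρ f, a ≠ 1) : 16 ≤ Nat.card (Fx ρ f) := by
  have := mod5 (ρ := ρ) e (W := ⊤) fun _ _ => trivial
  rw [top_inf_eq, card_top, h.card] at this
  exact big h (this.symm.trans (by decide)) n

omit [Finite V] in
theorem card_res (g : K) (W : Subgroup V) :
    Nat.card (W ⊓ Fx ρ g : Subgroup V) * Nat.card (W.map (dl ρ g)) = Nat.card W := by
  have := ((dl ρ g).domRestrict W).ker.card_mul_index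
  rwa [index_ker, MonoidHom.domRestrict_range, show ((dl ρ g).domRestrict W).ker = (W ⊓ Fx ρ g).subgroupOf W from
    Subgroup.ext fun a => (one_iff h).trans ⟨fun m => ⟨a.2, m⟩, fun m => m.2⟩,
    Nat.card_congr (subgroupOfEquivOfLe inf_le_left).toEquiv] at this

omit [Finite V] h in
theorem dl_fix (e : i * i = 1) (a : V) : dl ρ i a ∈ Fx ρ i := by
  rw [mem_Fx, dl_apply, map_mul, ← ap, e, ap1, mul_comm]

/-- an involution inverting a subgroup `3 × 3` acts freely -/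
theorem free (e : E9 y z) (i2 : i * i = 1) (iy : i * y * i * y = 1) (iz : i * z * i * z = 1) :
    Nat.card (Fx ρ i) = 16 := by
  have d : Nat.card (Fx ρ i ⊓ Fx ρ (y * i * y⁻¹) : Subgroup V) ≤ 3 := by
    by_contra n
    have l : Fx ρ i ⊓ Fx ρ (y * i * y⁻¹) ≤ Fx ρ y := fun a m => by
      have := fm m.1 m.2
      rwa [show i * (y * i * y⁻¹) = i * y * i * y * (y * y * y)⁻¹ * y by group, iy, e.1, inv_one, mul_one,
        one_mul] at this
    have q := eq_of_le_of_card_ge l (by have := le4 h e.1 e.2.2.2.1; omega)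
    have : Fx ρ y = ⊥ := (eq_bot_iff_forall _).2 fun a m => by
      have m1 := fc e.2.2.1 m
      have k := ap1 (ρ := ρ) a
      rw [← iz, ap, ap, ap, mem_Fx.1 (q.ge m1).1, mem_Fx.1 (q.ge (fc e.2.2.1 m1)).1] at k
      exact fix9 h e m (by conv_lhs => rw [← k, ← ap, ← ap, e.2.1, ap1])
    rw [q, this, card_bot] at n
    omega
  have c1 := card_res h i ⊤
  have c2 := card_res h (y * i * y⁻¹) ⊤
  have c3 := card_res h (y * i * y⁻¹) (Fx ρ i)
  have c4 := card_le_of_le (map_mono (f := dl ρ (y * i * y⁻¹)) (le_top (a := Fx ρ i)))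
  have c5 : Nat.card (Subgroup.map (dl ρ i) ⊤) ≤ Nat.card (Fx ρ i) :=
    card_le_of_le (by rintro _ ⟨a, -, rfl⟩; exact dl_fix i2 a)
  rw [top_inf_eq, card_top, h.card] at c1 c2
  rw [card_conj] at c2
  have c6 := Nat.mul_le_mul d c4
  obtain ⟨k, l, e'⟩ := pow2 h (Fx ρ i)
  rw [c3] at c6
  rw [e'] at c1 c2 c5 c6 ⊢
  interval_cases k <;> omega

/-- elements of order three have fixed points -/
theorem ne3 (e : E9 y z) : ∃ a ∈ Fx ρ y, a ≠ 1 := by
  by_contra n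
  push Not at n
  obtain ⟨y3, z3, c, -, n2, n3, n4⟩ := e
  have c' : Commute y z := c
  have e1 : y * z * (y * z) = y * y * (z * z) := c'.symm.mul_mul_mul_comm y z
  have e2 : y * y * z * (y * y * z) = y * (z * z) := by
    rw [(c'.mul_left c').symm.mul_mul_mul_comm, ← mul_assoc (y * y), y3, one_mul]
  have u1 : y * z * (y * z) * (y * z) = 1 := by
    rw [e1, (c'.mul_right c').symm.mul_mul_mul_comm, y3, z3, one_mul]
  have u2 : y * y * z * (y * y * z) * (y * y * z) = 1 := by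
    rw [e2, ((c'.mul_right c').mul_left (c'.mul_right c')).symm.mul_mul_mul_comm, ← mul_assoc y, y3, z3, one_mul]
  have l1 := le4 h z3 n2
  have l2 := le4 h u1 fun k => n4 (mul_left_cancel (a := y) (by rw [k, ← mul_assoc, y3]))
  have l3 := le4 h u2 fun k => n3 (mul_left_cancel (a := y * y) (by rw [k, y3]))
  have := Nat.card_le_card_of_surjective (fun p : Fx ρ z × Fx ρ (y * z) × Fx ρ (y * y * z) =>
    (p.1 * p.2.1 * p.2.2 : V)) fun a => ⟨(⟨_, N3_fix z3 a⟩, ⟨_, N3_fix u1 a⟩, ⟨_, N3_fix u2 a⟩), by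
      have k1 := n _ (N3_fix y3 (ρ z a))
      have k2 := n _ (N3_fix y3 (ρ (z * z) a))
      simp only [N3, ← ap] at k1 k2 ⊢
      rw [e1, e2]
      calc _ = a * (a * a) * (ρ z a * ρ (y * z) a * ρ (y * y * z) a) *
          (ρ (z * z) a * ρ (y * (z * z)) a * ρ (y * y * (z * z)) a) := by ac_rfl
        _ = a := by rw [k1, k2, h.sq, mul_one, mul_one, mul_one]⟩
  rw [Nat.card_prod, Nat.card_prod, h.card] at this
  have := this.trans (Nat.mul_le_mul l1 (Nat.mul_le_mul l2 l3))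
  omega

/-- fixed points of a subgroup `A₅` -/
theorem half (f5 : f ^ 5 = 1) (g5 : g ^ 5 = 1) (i2 : g * f * (g * f) = 1) (c : Nat.card (Fx ρ (g * f)) = 16)
    (y3 : g * f * g * g * (g * f * g * g) * (g * f * g * g) = 1) (y1 : g * f * g * g ≠ 1)
    (n : ∃ a ∈ Fx ρ f, a ≠ 1) (n' : ∃ a ∈ Fx ρ g, a ≠ 1) : ∃ a ∈ Fx ρ f ⊓ Fx ρ g, a ≠ 1 := by
  by_contra m
  push Not at m
  have c1 := card_res h g (Fx ρ f)
  rw [(eq_bot_iff_forall _).2 m, card_bot, one_mul] at c1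
  have e : (Fx ρ f).map (dl ρ g) = Fx ρ (g * f) := eq_of_le_of_card_ge (by
    rintro _ ⟨a, ha, rfl⟩
    have := dl_fix (ρ := ρ) i2 a
    rwa [dl_apply, ap, mem_Fx.1 ha] at this) (by have := big5 h f5 n; omega)
  have k : ∀ v, N5 ρ g (ρ (g * f) v) = N5 ρ g v := fun v => by
    obtain ⟨a, -, e⟩ := e.ge (dl_fix i2 v)
    rw [← one_iff h, ← map_mul, ← dl_apply, ← e, dl_apply, map_mul, N5_inv g5, h.sq]
  have k' : ∀ v, N5 ρ g (ρ (g * f * g * g) v) = N5 ρ g v := fun v => by rw [ap, ap, k, N5_inv g5, N5_inv g5]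
  have l : Fx ρ g ≤ (Fx ρ (g * f * g * g)).map (N5 ρ g) := fun a ha => ⟨_, N3_fix y3 a, by
    have p : ∀ n : ℕ, ρ (g ^ n) a = a := fun n => by
      induction n with
      | zero => rw [pow_zero, ap1]
      | succ n ih => rw [pow_succ, fm ih ha]
    rw [N3, map_mul, map_mul, k', ap, k', k', h.sq, one_mul, N5_apply, p, p, p, mem_Fx.1 ha, h.sq, one_mul, h.sq,
      one_mul]⟩
  have := (card_le_of_le l).trans ((Nat.le_of_dvd Nat.card_pos (card_map_dvd _ _)).trans (le4 h y3 y1))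
  have := big5 h g5 n'
  omega

omit [Finite V] in
/-- a point stabiliser of `A₆` has no fixed points -/
theorem fin {b c : K} (e : E9 y b) (e' : E9 z c) (h1 : ρ y a = a) (h2 : ρ z a = a) (h3 : ρ (b * c * c) a = a)
    (h4 : ρ (b * b * c * b) a = a) : a = 1 := by
  have k1 := fix9 h e (N3_comm e.2.2.1 h1) (N3_fix e.2.1 a)
  have k2 := fix9 h e' (N3_comm e'.2.2.1 h2) (N3_fix e'.2.1 a)
  have k3 : ρ (c * c) a = ρ (b * b) a := by
    conv_rhs => rw [← h3, ← ap, ← mul_assoc, ← mul_assoc, e.2.1, one_mul]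
  rw [← k2, N3, N3, k3, mul_left_inj, mul_right_inj] at k1
  have := fix9 h e' (fc e'.2.2.1 h2) (by
    rw [← k1]
    conv_rhs => rw [← h4, ← ap, ← mul_assoc, ← mul_assoc, ← mul_assoc, e.2.1, one_mul, ap])
  exact (map_eq_one_iff _ (ρ c).injective).1 this

theorem quad (i2 : i * i = 1) (k2 : k * k = 1) (e : E9 (i * k) z) (fp : ∀ a, ρ (j * k) a = a → a = 1) :
    ∃ a, ρ i a = a ∧ ρ j a ≠ a := by
  obtain ⟨a, m, n⟩ := step h i2 (fun a m => by
    have : ρ k (ρ i a) = a := by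
      conv_lhs => rw [← mem_Fx.1 m, ← ap i, ← mul_assoc, i2, one_mul, ← ap, k2, ap1]
    rw [mem_Fx, ap, this]) (ne3 h e)
  have := fm m.2 m.1
  rw [← mul_assoc, i2, one_mul] at this
  exact ⟨a, m.2, fun c => n (fp a (fm c this))⟩

/-- the subgroup `2⁴ : 5` -/
theorem core {u v : K} (f5 : f ^ 5 = 1) (fp : ∀ a, ρ f a = a → a = 1) (i2 : i * i = 1) (j2 : j * j = 1)
    (u2 : u * u = 1) (v2 : v * v = 1) (ij : i * j = j * i) (iu : i * u = u * i) (iv : i * v = v * i)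
    (ju : j * u = u * j) (jv : j * v = v * j) (uv : u * v = v * u) (c1 : j * f = f * i) (c2 : u * f = f * j)
    (c3 : v * f = f * u) (c0 : i * f = f * (i * j * u * v)) (c : Nat.card (Fx ρ i) = 16) (m : ρ i a = a) :
    ρ j a = a := by
  have : Nontrivial V := Finite.one_lt_card_iff_nontrivial.1 (by rw [h.card]; omega)
  have s1 := step h i2 (W := ⊤) (fun _ _ => trivial) ((exists_ne 1).imp fun a n => ⟨trivial, n⟩)
  have s2 := step h j2 (W := ⊤ ⊓ Fx ρ i) (fun a m => ⟨trivial, fc ij m.2⟩) s1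
  have s3 := step h u2 (W := ⊤ ⊓ Fx ρ i ⊓ Fx ρ j) (fun a m => ⟨⟨trivial, fc iu m.1.2⟩, fc ju m.2⟩) s2
  have s := step h v2 (W := ⊤ ⊓ Fx ρ i ⊓ Fx ρ j ⊓ Fx ρ u)
    (fun a m => ⟨⟨⟨trivial, fc iv m.1.1.2⟩, fc jv m.1.2⟩, fc uv m.2⟩) s3
  have t := mod5 (ρ := ρ) f5 (W := ⊤ ⊓ Fx ρ i ⊓ Fx ρ j ⊓ Fx ρ u ⊓ Fx ρ v) fun a ⟨⟨⟨⟨_, m1⟩, m2⟩, m3⟩, m4⟩ =>
    ⟨⟨⟨⟨trivial, mem_Fx.2 (by rw [← ap, c0, ap, fm (fm (fm m1 m2) m3) m4])⟩,
      mem_Fx.2 (by rw [← ap, c1, ap, mem_Fx.1 m1])⟩, mem_Fx.2 (by rw [← ap, c2, ap, mem_Fx.1 m2])⟩,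
      mem_Fx.2 (by rw [← ap, c3, ap, mem_Fx.1 m3])⟩
  rw [(eq_bot_iff_forall (_ ⊓ Fx ρ f)).2 fun a m => fp a m.2, card_bot] at t
  have l : ⊤ ⊓ Fx ρ i ⊓ Fx ρ j ⊓ Fx ρ u ⊓ Fx ρ v ≤ Fx ρ i := fun a m => m.1.1.1.2
  exact ((eq_of_le_of_card_ge l (c ▸ big h t s)).ge m).1.1.2

omit h [Finite V] in
theorem eqns_mod1 : True := by
  have := @Fx.eq_1.{0, 0}
  have := @E9.eq_1.{0}
  have := @N3.eq_1.{0, 0}
  have := @dl.eq_1.{0, 0}
  have := @N5.eq_1.{0, 0}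
  trivial

end H92.T3M
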